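import Cfsg.Agent.OneMMN.Basic
import Cfsg.Agent.ClassGraph.Cover
import Cfsg.Agent.TwoClasses.Basic

/-!
A normal subgroup `N` containing a noncentral Sylow `r`-subgroup, all of whose elements have class sizes
`1` or `m` in the whole group (Itô's argument, relativised): centralizers of noncentral elements of order
prime to `r`.
-/

set_option autoImplicit false

namespace CfsgLib.TwoSizesNormal

open OneMMN

variable {G : Type*} [Group G]

/-- An element of `N` outside the centre of the group. -/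
def NC (N : Subgroup G) (x : G) : Prop := x ∈ N ∧ x ∉ Subgroup.center G

/-- The projection modulo the centre. -/
abbrev π : G →* G ⧸ Subgroup.center G := QuotientGroup.mk' _

theorem π_eq_one_iff {x : G} : π x = 1 ↔ x ∈ Subgroup.center G := QuotientGroup.eq_one_iff x

theorem π_eq_iff {x y : G} : π x = π y ↔ x⁻¹ * y ∈ Subgroup.center G := QuotientGroup.eq

theorem C_inv (x : G) : C x⁻¹ = C x := by
  ext g
  rw [mem_C, mem_C]
  exact ⟨fun h => by simpa using ((show Commute g x⁻¹ from h).inv_right).eq,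
    fun h => ((show Commute g x from h).inv_right).eq⟩

theorem C_pow_le (x : G) (k : ℕ) : C x ≤ C (x ^ k) :=
  C_le_of_mem_zpowers (Subgroup.npow_mem_zpowers x k)

theorem mem_center_of_coprime_pow [Finite G] {c : G} {k l : ℕ} (hk : c ^ k ∈ Subgroup.center G)
    (hl : c ^ l ∈ Subgroup.center G) (h : k.Coprime l) : c ∈ Subgroup.center G := by
  rw [← π_eq_one_iff] at hk hl ⊢
  rw [map_pow] at hk hl
  have h1 := Nat.dvd_gcd (orderOf_dvd_of_pow_eq_one hk) (orderOf_dvd_of_pow_eq_one hl)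
  rw [h] at h1
  exact orderOf_eq_one_iff.1 (Nat.dvd_one.1 h1)

/-- Commuting modulo the centre with coprime orders implies commuting. -/
theorem mem_C_of_π {v t : G} (h : π v * π t = π t * π v) (hc : (orderOf v).Coprime (orderOf t)) : v ∈ C t := by
  set c := t⁻¹ * (v * t * v⁻¹) with hcdef
  have hcz : c ∈ Subgroup.center G := by
    rw [← π_eq_one_iff, hcdef, map_mul, map_inv, map_mul, map_mul, map_inv, h]
    group
  have hct : ∀ g, g * c = c * g := Subgroup.mem_center_iff.1 hcz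
  have e : v * t * v⁻¹ = t * c := by rw [hcdef, mul_inv_cancel_left]
  have h1 : ∀ i : ℕ, v ^ i * t * (v ^ i)⁻¹ = t * c ^ i := by
    intro i
    induction i with
    | zero => simp
    | succ i ih =>
      calc v ^ (i + 1) * t * (v ^ (i + 1))⁻¹ = v * (v ^ i * t * (v ^ i)⁻¹) * v⁻¹ := by rw [pow_succ']; group
        _ = (v * t * v⁻¹) * (v * c ^ i * v⁻¹) := by rw [ih]; group
        _ = _ := by rw [e, ((show Commute v c from hct v).pow_right i).eq, mul_inv_cancel_right, pow_succ',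
            mul_assoc]
  have h2 : c ^ orderOf v = 1 := by
    have := h1 (orderOf v)
    rw [pow_orderOf_eq_one] at this
    simpa using this.symm
  have h3 : c ^ orderOf t = 1 := by
    have h4 : (v * t * v⁻¹) ^ orderOf t = 1 := by rw [conj_pow, pow_orderOf_eq_one]; group
    rw [e, (show Commute t c from hct t).mul_pow, pow_orderOf_eq_one, one_mul] at h4
    exact h4
  have h5 : c = 1 := by
    have h4 := Nat.dvd_gcd (orderOf_dvd_of_pow_eq_one h2) (orderOf_dvd_of_pow_eq_one h3)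
    rw [hc] at h4
    exact orderOf_eq_one_iff.1 (Nat.dvd_one.1 h4)
  rw [h5, mul_one, mul_inv_eq_iff_eq_mul] at e
  exact mem_C.2 e

/-- The hypothesis of the theorem. -/
structure Setup (r : ℕ) (N : Subgroup G) (R : Sylow r G) (m : ℕ) : Prop where
  normal : N.Normal
  le : (R : Subgroup G) ≤ N
  ncR : ¬ (R : Subgroup G) ≤ Subgroup.center G
  sizes : ∀ x ∈ N, (C x).index = 1 ∨ (C x).index = m

/-- The elements centralizing `x` of order a power of `r`. -/
def T (r : ℕ) (x : G) : Subgroup G := Subgroup.closure {y | y ∈ C x ∧ PElt r y}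

/-- The elements of `N` centralizing `x` of order prime to `r`. -/
def H (r : ℕ) (N : Subgroup G) (x : G) : Subgroup G :=
  Subgroup.closure {h | h ∈ C x ∧ h ∈ N ∧ ¬ r ∣ orderOf h}

variable {r : ℕ} {N : Subgroup G} {R : Sylow r G} {m : ℕ} (D : Setup r N R m)
include D

theorem Setup.conj_mem_N {x : G} (hx : x ∈ N) (g : G) : g * x * g⁻¹ ∈ N := D.normal.conj_mem x hx g

theorem Setup.NC_conj {x : G} (hx : NC N x) (g : G) : NC N (g * x * g⁻¹) :=
  ⟨D.conj_mem_N hx.1 g, mt conj_mem_center.1 hx.2⟩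

theorem Setup.idx {x : G} (hx : NC N x) : (C x).index = m :=
  (D.sizes x hx.1).resolve_left fun e => hx.2 (idx_eq_one_iff.1 e)

variable [Finite G]

theorem Setup.eq_of_le {x y : G} (hx : NC N x) (hy : NC N y) (h : C x ≤ C y) : C x = C y :=
  eq_of_le_of_index h ((D.idx hx).trans (D.idx hy).symm)

theorem Setup.C_le {x z : G} (hx : NC N x) (hz : z ∈ C x) (hzN : z ∈ N)
    (hc : (orderOf x).Coprime (orderOf z)) : C x ≤ C z := by
  have e := C_mul (mem_C.1 hz).symm hc
  have hnc : NC N (x * z) := ⟨mul_mem hx.1 hzN, fun h => hx.2 <| by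
    rw [mem_center_iff_C, eq_top_iff, ← mem_center_iff_C.1 h, e]
    exact inf_le_left⟩
  rw [← D.eq_of_le hnc hx (e.le.trans inf_le_left), e]
  exact inf_le_right

/-- An element whose `k`-th power is central forces the same for commuting modulo the centre. -/
theorem Setup.pow_mem_center {a b : G} (ha : NC N a) (hb : NC N b) (hc : π a * π b = π b * π a)
    (hne : C a ≠ C b) {k : ℕ} (hk : b ^ k ∈ Subgroup.center G) : a ^ k ∈ Subgroup.center G := by
  by_contra hak
  refine hne ?_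
  have hwk : π ((a * b) ^ k) = π (a ^ k) := by
    rw [map_pow, map_mul, (show Commute (π a) (π b) from hc).mul_pow, ← map_pow, ← map_pow,
      π_eq_one_iff.2 hk, mul_one]
  have hz : (a ^ k)⁻¹ * (a * b) ^ k ∈ Subgroup.center G := π_eq_iff.1 hwk.symm
  have e1 : C ((a * b) ^ k) = C (a ^ k) := by
    rw [← C_mul_central (x := a ^ k) hz, mul_inv_cancel_left]
  have hake : C a = C (a ^ k) := D.eq_of_le ha ⟨pow_mem ha.1 k, hak⟩ (C_pow_le a k)
  have hwc : a * b ∉ Subgroup.center G := fun h => by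
    have hk' : (a * b) ^ k ∈ Subgroup.center G := pow_mem h k
    rw [mem_center_iff_C, e1] at hk'
    exact hak (mem_center_iff_C.2 hk')
  have hw : C (a * b) = C a := by
    rw [hake]
    refine D.eq_of_le ⟨mul_mem ha.1 hb.1, hwc⟩ ⟨pow_mem ha.1 k, hak⟩ ?_
    rw [← e1]; exact C_pow_le _ _
  refine D.eq_of_le ha hb fun g hg => mem_C.2 ?_
  have h1 : Commute g a := mem_C.1 hg
  have h2 : Commute g (a * b) := mem_C.1 (hw.symm ▸ hg : g ∈ C (a * b))
  have h3 := h1.inv_right.mul_right h2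
  rw [inv_mul_cancel_left] at h3
  exact h3.eq

variable [Fact r.Prime]

theorem Setup.rElt_mem {y : G} (hy : PElt r y) : y ∈ N := by
  obtain ⟨g, hg⟩ := exists_conj_mem_sylow R hy.isPGroup_zpowers
  have h := D.normal.conj_mem _ (D.le (hg y (Subgroup.mem_zpowers y))) g⁻¹
  simpa [mul_assoc] using h

theorem Setup.rSub_le {V : Subgroup G} (hV : IsPGroup r V) : V ≤ N := fun _ hy =>
  D.rElt_mem (PElt.of_mem Fact.out hV hy)

theorem Setup.exists_nc : ∃ u, PElt r u ∧ NC N u := by
  by_contra h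
  push Not at h
  refine D.ncR fun u hu => ?_
  by_contra hc
  exact h u (PElt.of_mem Fact.out R.isPGroup' hu) ⟨D.le hu, hc⟩

/-- If `r` does not divide the class size, `N` is abelian. -/
theorem Setup.comm_of_not_dvd (hr : ¬ r ∣ m) : IsMulCommutative N := by
  haveI := D.normal
  have hcov : ((Subgroup.centralizer ((R : Subgroup G) : Set G)).subgroupOf N) = ⊤ := by
    refine TwoClasses.eq_top_of_conj_cover _ fun a => ?_
    rcases eq_or_ne (a : G) 1 with h1 | h1
    · exact ⟨1, by rw [Subgroup.mem_subgroupOf]; simp [h1]⟩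
    have hd : ¬ r ∣ (C (a : G)).index := by
      rcases D.sizes a a.2 with e | e <;> rw [e]
      exacts [(Fact.out : r.Prime).not_dvd_one, hr]
    obtain ⟨-, g, hg⟩ := ClassGraph.mem_covered R h1 hd
    have hgm : g ∈ Subgroup.normalizer ((R : Subgroup G) : Set G) ⊔ N := by
      exact (Sylow.normalizer_sup_eq_top' R D.le).ge (Subgroup.mem_top g)
    rw [sup_comm, ← SetLike.mem_coe, Subgroup.normal_mul] at hgm
    obtain ⟨n, hn, s, hs, rfl⟩ := Set.mem_mul.1 hgm
    refine ⟨⟨n, hn⟩, ?_⟩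
    rw [Subgroup.mem_subgroupOf, Subgroup.mem_centralizer_iff]
    intro u hu
    have h2 := Subgroup.mem_centralizer_iff.1 hg (s⁻¹ * u * s) <| by
      have h := (Subgroup.mem_normalizer_iff.1 ((Subgroup.normalizer _).inv_mem hs) u).1 hu
      rwa [inv_inv] at h
    push_cast
    calc u * (n⁻¹ * (a : G) * n) = s * ((s⁻¹ * u * s) * ((n * s)⁻¹ * (a : G) * (n * s))) * s⁻¹ := by group
      _ = _ := by rw [h2]; group
  have hcent : ∀ v ∈ N, ∀ u ∈ (R : Subgroup G), u * v = v * u := fun v hv u hu =>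
    Subgroup.mem_centralizer_iff.1 ((Subgroup.subgroupOf_eq_top.1 hcov) hv) u hu
  obtain ⟨u, huR, huc⟩ : ∃ u ∈ (R : Subgroup G), u ∉ Subgroup.center G := by
    by_contra h
    push Not at h
    exact D.ncR h
  have hu : NC N u := ⟨D.le huR, huc⟩
  have hurR : ∀ y ∈ N, PElt r y → y ∈ (R : Subgroup G) := by
    intro y hy hyr
    have hnorm : Subgroup.zpowers y ≤ Subgroup.normalizer ((R : Subgroup G) : Set G) :=
      (Subgroup.zpowers_le.2 (Subgroup.mem_centralizer_iff.2 (hcent y hy))).trans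
        (Subgroup.centralizer_le_normalizer _)
    have hg := R.isPGroup'.to_sup_of_normal_left' hyr.isPGroup_zpowers hnorm
    exact R.is_maximal' hg le_sup_left ▸ Subgroup.mem_sup_right (Subgroup.mem_zpowers y)
  have hNc : N ≤ Subgroup.centralizer (N : Set G) := by
    refine le_of_pElts fun q hq b hb hbq => Subgroup.mem_centralizer_iff.2 fun v hv => ?_
    by_cases hqr : q = r
    · subst hqr
      exact (hcent v hv b (hurR b hb hbq)).symm
    · have hbr := PElt.not_dvd (p := r) Fact.out hq hqr hbq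
      have hle : C u ≤ C b := D.C_le hu (mem_C.2 (hcent b hb u huR).symm) hb
        ((PElt.of_mem Fact.out R.isPGroup' huR).coprime Fact.out hbr)
      exact mem_C.1 (hle (mem_C.2 (hcent v hv u huR).symm))
  exact ⟨⟨fun a b => Subtype.ext (Subgroup.mem_centralizer_iff.1 (hNc b.2) a a.2)⟩⟩

/-- The `r`-part of every centralizer of a noncentral element of `N`. -/
theorem Setup.exists_rSub {x : G} (hx : NC N x) {W : Subgroup G} (hW : IsPGroup r W) (hWx : W ≤ C x) :
    ∃ U : Subgroup G, IsPGroup r U ∧ U ≤ C x ∧ W ≤ U ∧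
      Nat.card U * r ^ m.factorization r = r ^ (Nat.card G).factorization r := by
  have hW' : IsPGroup r (W.subgroupOf (C x)) := hW.of_equiv (Subgroup.subgroupOfEquivOfLe hWx).symm
  obtain ⟨U, hU⟩ := hW'.exists_le_sylow
  refine ⟨(U : Subgroup (C x)).map (C x).subtype, U.isPGroup'.map _, Subgroup.map_subtype_le _,
    fun w hw => ⟨⟨w, hWx hw⟩, hU hw, rfl⟩, ?_⟩
  rw [Subgroup.card_map_of_injective (Subgroup.subtype_injective _), U.card_eq_multiplicity, ← pow_add,
    ← D.idx hx, ← Finsupp.add_apply, ← Nat.factorization_mul Nat.card_pos.ne' Subgroup.index_ne_zero_of_finite,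
    Subgroup.card_mul_index]

theorem Setup.card_rSub_le {x : G} (hx : NC N x) {U W : Subgroup G}
    (hU : Nat.card U * r ^ m.factorization r = r ^ (Nat.card G).factorization r)
    (hW : IsPGroup r W) (hWx : W ≤ C x) : Nat.card W ≤ Nat.card U := by
  obtain ⟨U', -, -, hWU', hU'⟩ := D.exists_rSub hx hW hWx
  refine (Subgroup.card_le_of_le hWU').trans (le_of_eq ?_)
  exact Nat.eq_of_mul_eq_mul_right (Nat.pow_pos (Fact.out : r.Prime).pos) (hU'.trans hU.symm)

omit D in
theorem central_rElt_mem (R' : Sylow r G) {z : G} (hz : z ∈ Subgroup.center G) (hzr : PElt r z) :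
    z ∈ (R' : Subgroup G) := by
  have hg := R'.isPGroup'.to_sup_of_normal_left' hzr.isPGroup_zpowers
    ((Subgroup.zpowers_le.2 hz).trans (Subgroup.center_le_normalizer ((R' : Subgroup G) : Set G)))
  exact R'.is_maximal' hg le_sup_left ▸ Subgroup.mem_sup_right (Subgroup.mem_zpowers z)

omit D [Finite G] [Fact r.Prime] in
theorem exists_not_center_of_card {V Z : Subgroup G} (h : Nat.card Z < Nat.card V) [Finite G]
    (hV : ∀ v ∈ V, v ∈ Subgroup.center G → v ∈ Z) : ∃ v ∈ V, v ∉ Subgroup.center G := by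
  by_contra hc
  push Not at hc
  exact absurd (Subgroup.card_le_of_le fun v hv => hV v hv (hc v hv)) (not_le.2 h)

/-- Every noncentral element of `N` commutes with a noncentral `r`-element. -/
theorem Setup.exists_nc_rElt {x : G} (hx : NC N x) : ∃ y ∈ C x, PElt r y ∧ NC N y := by
  obtain ⟨u, hu, huN⟩ := D.exists_nc
  set Z := (R : Subgroup G) ⊓ Subgroup.center G
  obtain ⟨U, hU, hUx, -, hUc⟩ := D.exists_rSub hx IsPGroup.of_bot (bot_le (a := C x))
  have hW : IsPGroup r (Z ⊔ Subgroup.zpowers u : Subgroup G) :=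
    (R.isPGroup'.to_le inf_le_left).to_sup_of_normal_left' hu.isPGroup_zpowers
      ((Subgroup.zpowers_le.2 (Subgroup.mem_centralizer_iff.2 fun z hz =>
        (Subgroup.mem_center_iff.1 hz.2 u).symm)).trans (Subgroup.centralizer_le_normalizer _))
  have hWu : Z ⊔ Subgroup.zpowers u ≤ C u :=
    sup_le (inf_le_right.trans (center_le_C u)) (Subgroup.zpowers_le.2 (self_mem_C u))
  have h1 : Nat.card Z < Nat.card U :=
    (Nat.lt_of_not_le fun h => huN.2 ((Subgroup.eq_of_le_of_card_ge le_sup_left h :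
      Z = Z ⊔ Subgroup.zpowers u).ge (Subgroup.mem_sup_right (Subgroup.mem_zpowers u))).2).trans_le
      (D.card_rSub_le huN hUc hW hWu)
  obtain ⟨v, hv, hvc⟩ := exists_not_center_of_card h1 fun v hv hvc =>
    ⟨central_rElt_mem R hvc (PElt.of_mem Fact.out hU hv), hvc⟩
  exact ⟨v, hUx hv, PElt.of_mem Fact.out hU hv, D.rElt_mem (PElt.of_mem Fact.out hU hv), hvc⟩

omit D in
/-- A noncentral element of `N` of prime power order prime to `r`. -/
def Comp (r : ℕ) (N : Subgroup G) (x : G) : Prop := NC N x ∧ ∃ p : ℕ, p.Prime ∧ p ≠ r ∧ PElt p x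

theorem Setup.Comp_conj {x : G} (hx : Comp r N x) (g : G) : Comp r N (g * x * g⁻¹) := by
  obtain ⟨h, p, hp, hpr, hpx⟩ := hx
  exact ⟨D.NC_conj h g, p, hp, hpr, hpx.conj g⟩

/-- The centralizer of `x` centralizes `C x ⊓ N`. -/
theorem Setup.cent {x : G} (hx : Comp r N x) {b : G} (hb : b ∈ C x) (hbN : b ∈ N) : C x ≤ C b := by
  obtain ⟨hxN, p, hp, hpr, hpx⟩ := hx
  obtain ⟨y, hy, hyr, hyN⟩ := D.exists_nc_rElt hxN
  have hxy : C x = C y := D.eq_of_le hxN hyN
    (D.C_le hxN hy hyN.1 (hpx.coprime hp (PElt.not_dvd hp Fact.out (Ne.symm hpr) hyr)))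
  suffices h : C x ⊓ N ≤ Subgroup.centralizer (C x : Set G) from fun g hg =>
    mem_C.2 (Subgroup.mem_centralizer_iff.1 (h ⟨hb, hbN⟩) g hg)
  refine le_of_pElts fun q hq z hz hzq => Subgroup.mem_centralizer_iff.2 fun g hg => ?_
  suffices g ∈ C z from mem_C.1 (mem_C_comm.1 this) |>.symm
  by_cases hqp : q = p
  · subst hqp
    rw [SetLike.mem_coe, hxy] at hg
    exact D.C_le hyN (hxy ▸ hz.1) hz.2 (hyr.coprime Fact.out (PElt.not_dvd Fact.out hq hpr hzq)) hg
  · exact D.C_le hxN hz.1 hz.2 (hpx.coprime hp (PElt.not_dvd hp hq hqp hzq)) hg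

theorem Setup.comp_eq {x t : G} (hx : Comp r N x) (ht : t ∈ C x) (htN : NC N t) : C t = C x :=
  (D.eq_of_le hx.1 htN (D.cent hx ht htN.1)).symm

theorem Setup.comm {x a b : G} (hx : Comp r N x) (ha : a ∈ C x) (hb : b ∈ C x) (hbN : b ∈ N) :
    a * b = b * a := mem_C.1 (D.cent hx hb hbN ha)

omit D [Finite G] [Fact r.Prime] in
theorem mem_T {x y : G} (hy : y ∈ C x) (hyr : PElt r y) : y ∈ T r x := Subgroup.subset_closure ⟨hy, hyr⟩

omit D [Finite G] [Fact r.Prime] in
theorem T_le (r : ℕ) (x : G) : T r x ≤ C x := (Subgroup.closure_le _).2 fun _ h => h.1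

omit D [Finite G] [Fact r.Prime] in
theorem H_le (r : ℕ) (N : Subgroup G) (x : G) : H r N x ≤ C x ⊓ N :=
  (Subgroup.closure_le _).2 fun _ h => ⟨h.1, h.2.1⟩

theorem Setup.T_spec {x : G} (hx : Comp r N x) : IsPGroup r (T r x) ∧ T r x ≤ N ∧
    Nat.card (T r x) * r ^ m.factorization r = r ^ (Nat.card G).factorization r := by
  obtain ⟨U, hU, hUx, -, hUc⟩ := D.exists_rSub hx.1 IsPGroup.of_bot (bot_le (a := C x))
  have e : T r x = U := by
    refine le_antisymm ((Subgroup.closure_le _).2 fun y hy => ?_) fun y hy =>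
      mem_T (hUx hy) (PElt.of_mem Fact.out hU hy)
    have hn : Subgroup.zpowers y ≤ Subgroup.centralizer (U : Set G) := Subgroup.zpowers_le.2
      (Subgroup.mem_centralizer_iff.2 fun u hu =>
        (D.comm hx hy.1 (hUx hu) (D.rSub_le hU hu)).symm)
    have hg := hU.to_sup_of_normal_left' hy.2.isPGroup_zpowers (hn.trans (Subgroup.centralizer_le_normalizer _))
    have h2 := D.card_rSub_le hx.1 hUc hg (sup_le hUx (Subgroup.zpowers_le.2 hy.1))
    rw [Subgroup.eq_of_le_of_card_ge le_sup_left h2]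
    exact Subgroup.mem_sup_right (Subgroup.mem_zpowers y)
  rw [e]
  exact ⟨hU, D.rSub_le hU, hUc⟩

theorem Setup.mem_H {x h : G} (hx : Comp r N x) :
    h ∈ H r N x ↔ h ∈ C x ∧ h ∈ N ∧ ¬ r ∣ orderOf h := by
  refine ⟨fun hh => ?_, fun hh => Subgroup.subset_closure hh⟩
  induction hh using Subgroup.closure_induction with
  | mem y hy => exact hy
  | one => exact ⟨one_mem _, one_mem _, by rw [orderOf_one]; exact (Fact.out : r.Prime).not_dvd_one⟩
  | mul a b _ _ ha hb =>
    refine ⟨mul_mem ha.1 hb.1, mul_mem ha.2.1 hb.2.1, fun hd => ?_⟩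
    have hc : Commute a b := D.comm hx ha.1 hb.1 hb.2.1
    have h1 := hd.trans (hc.orderOf_mul_dvd_lcm.trans (Nat.lcm_dvd_mul _ _))
    exact ((Fact.out : r.Prime).dvd_mul.1 h1).elim ha.2.2 hb.2.2
  | inv a _ ha => exact ⟨inv_mem ha.1, inv_mem ha.2.1, by rw [orderOf_inv]; exact ha.2.2⟩

theorem Setup.not_dvd_card_H {x : G} (hx : Comp r N x) : ¬ r ∣ Nat.card (H r N x) := fun h => by
  obtain ⟨y, hy⟩ := exists_prime_orderOf_dvd_card' r h
  exact ((D.mem_H hx).1 y.2).2.2 (by rw [Subgroup.orderOf_coe, hy])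

theorem Setup.card_A {x : G} (hx : Comp r N x) :
    Nat.card (C x ⊓ N : Subgroup G) = Nat.card (T r x) * Nat.card (H r N x) := by
  obtain ⟨hT, hTN, -⟩ := D.T_spec hx
  rw [← Nat.card_prod]
  refine (Nat.card_congr (Equiv.ofBijective (fun w : (T r x) × (H r N x) =>
    (⟨w.1.1 * w.2.1, mul_mem (⟨T_le r x w.1.2, hTN w.1.2⟩ : w.1.1 ∈ C x ⊓ N) (H_le r N x w.2.2)⟩ :
      (C x ⊓ N : Subgroup G))) ⟨?_, ?_⟩)).symm
  · intro a b hab
    have h' : a.1.1 * a.2.1 = b.1.1 * b.2.1 := congrArg Subtype.val hab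
    have he : b.1.1⁻¹ * a.1.1 = b.2.1 * a.2.1⁻¹ := by
      calc b.1.1⁻¹ * a.1.1 = b.1.1⁻¹ * (a.1.1 * a.2.1) * a.2.1⁻¹ := by group
        _ = _ := by rw [h']; group
    have h1 : b.1.1⁻¹ * a.1.1 = 1 := by
      refine (PElt.of_mem Fact.out hT (mul_mem (inv_mem b.1.2) a.1.2)).eq_one Fact.out ?_
      rw [he]
      exact ((D.mem_H hx).1 (mul_mem b.2.2 (inv_mem a.2.2))).2.2
    rw [h1] at he
    exact Prod.ext (Subtype.ext (inv_mul_eq_one.1 h1).symm) (Subtype.ext (mul_inv_eq_one.1 he.symm).symm)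
  · rintro ⟨z, hz⟩
    obtain ⟨a, b, rfl, -, ha, hb, haz, hbz⟩ := split (p := r) Fact.out z
    have ha' := Subgroup.zpowers_le.2 hz haz
    have hb' := Subgroup.zpowers_le.2 hz hbz
    exact ⟨⟨⟨a, mem_T ha'.1 ha⟩, ⟨b, (D.mem_H hx).2 ⟨hb'.1, hb'.2, hb⟩⟩⟩, rfl⟩

end CfsgLib.TwoSizesNormal
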